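import Cfsg.Agent.TwoF.XS.S62.Lin

/-!
# TwoF XS-62: the group `3 ≀ 3` with sign changes (helper35)
-/

set_option autoImplicit false
set_option linter.unusedSectionVars false

namespace Cfsg.Agent.TwoF.XS.S62

open Module Gen
open scoped Pointwise

variable {G : Type} [Group G]

/-- the relations -/
structure Dt (a0 a1 a2 s e : G) : Prop where
  a3 : a0 ^ 3 = 1
  ne : a0 ≠ 1
  s3 : s ^ 3 = 1
  c0 : s * a0 * s⁻¹ = a1
  c1 : s * a1 * s⁻¹ = a2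
  c01 : a0 * a1 = a1 * a0
  e0 : e * a0 * e⁻¹ = a0
  e1 : e * a1 * e⁻¹ = a1⁻¹
  e2 : e * a2 * e⁻¹ = a2⁻¹

/-- words -/
def wd (a0 a1 a2 : G) (i j l : ℤ) : G := a0 ^ i * a1 ^ j * a2 ^ l

namespace Dt

variable {a0 a1 a2 s e : G} (D : Dt a0 a1 a2 s e)
include D

theorem sss (g : G) : s * (s * (s * g * s⁻¹) * s⁻¹) * s⁻¹ = g := by
  rw [show s * (s * (s * g * s⁻¹) * s⁻¹) * s⁻¹ = s ^ 3 * g * (s ^ 3)⁻¹ by rw [pow_three]; group, D.s3]; group

theorem c2 : s * a2 * s⁻¹ = a0 := by rw [← D.c1, ← D.c0, D.sss]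

theorem b3 : a1 ^ 3 = 1 := by rw [← D.c0, conj_pow, D.a3]; group

theorem d3 : a2 ^ 3 = 1 := by rw [← D.c1, conj_pow, D.b3]; group

theorem k01 : Commute a0 a1 := D.c01

theorem k12 : Commute a1 a2 := by
  have := (D.k01).conj s
  rwa [D.c0, D.c1] at this

theorem k02 : Commute a0 a2 := by
  have := (D.k12).conj s
  rw [D.c1, D.c2] at this
  exact this.symm

theorem wd_mul (i j l i' j' l' : ℤ) :
    wd a0 a1 a2 i j l * wd a0 a1 a2 i' j' l' = wd a0 a1 a2 (i + i') (j + j') (l + l') := by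
  simp only [wd, zpow_add]
  rw [(((D.k02.symm.zpow_zpow l i').mul_right (D.k12.symm.zpow_zpow l j'))).mul_mul_mul_comm,
    (D.k01.symm.zpow_zpow j i').mul_mul_mul_comm]

theorem wd_congr {i j l i' j' l' : ℤ} (h1 : 3 ∣ i - i') (h2 : 3 ∣ j - j') (h3 : 3 ∣ l - l') :
    wd a0 a1 a2 i j l = wd a0 a1 a2 i' j' l' := by
  have key : ∀ (a : G) (i i' : ℤ), a ^ 3 = 1 → 3 ∣ i - i' → a ^ i = a ^ i' := by
    rintro a i i' ha ⟨c, hc⟩
    rw [show i = i' + 3 * c by omega, zpow_add, zpow_mul, zpow_ofNat, ha, one_zpow, mul_one]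
  rw [wd, wd, key _ _ _ D.a3 h1, key _ _ _ D.b3 h2, key _ _ _ D.d3 h3]

omit D in
theorem wd_zero : wd a0 a1 a2 0 0 0 = 1 := by simp [wd]

theorem wd_s (i j l : ℤ) : s * wd a0 a1 a2 i j l * s⁻¹ = wd a0 a1 a2 l i j := by
  rw [wd, show s * (a0 ^ i * a1 ^ j * a2 ^ l) * s⁻¹ =
    (s * a0 ^ i * s⁻¹) * (s * a1 ^ j * s⁻¹) * (s * a2 ^ l * s⁻¹) by group, ← conj_zpow, ← conj_zpow, ← conj_zpow,
    D.c0, D.c1, D.c2, wd, ← (((D.k01.zpow_zpow l i).mul_right (D.k02.zpow_zpow l j))).eq, mul_assoc]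

theorem wd_e (i j l : ℤ) : e * wd a0 a1 a2 i j l * e⁻¹ = wd a0 a1 a2 i (-j) (-l) := by
  rw [wd, show e * (a0 ^ i * a1 ^ j * a2 ^ l) * e⁻¹ =
    (e * a0 ^ i * e⁻¹) * (e * a1 ^ j * e⁻¹) * (e * a2 ^ l * e⁻¹) by group, ← conj_zpow, ← conj_zpow, ← conj_zpow,
    D.e0, D.e1, D.e2, wd, inv_zpow', inv_zpow']

theorem dvd1 {i j l : ℤ} (h : wd a0 a1 a2 i j l = 1) : 3 ∣ i := by
  haveI : Fact (Nat.Prime 3) := ⟨Nat.prime_three⟩
  have h1 := D.wd_mul i j l i (-j) (-l)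
  rw [← D.wd_e, h, add_neg_cancel, add_neg_cancel, wd, zpow_zero, zpow_zero, mul_one, mul_one, mul_one, one_mul,
    mul_inv_cancel, eq_comm, ← orderOf_dvd_iff_zpow_eq_one, orderOf_eq_prime D.a3 D.ne] at h1
  omega

theorem dvd {i j l : ℤ} (h : wd a0 a1 a2 i j l = 1) : 3 ∣ i ∧ 3 ∣ j ∧ 3 ∣ l := by
  have h1 : wd a0 a1 a2 l i j = 1 := by rw [← D.wd_s, h]; group
  have h2 : wd a0 a1 a2 j l i = 1 := by rw [← D.wd_s, h1]; group
  exact ⟨D.dvd1 h, D.dvd1 h2, D.dvd1 h1⟩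

theorem dvd' {i j l i' j' l' : ℤ} (h : wd a0 a1 a2 i j l = wd a0 a1 a2 i' j' l') :
    3 ∣ i - i' ∧ 3 ∣ j - j' ∧ 3 ∣ l - l' := D.dvd (by
  rw [sub_eq_add_neg, sub_eq_add_neg, sub_eq_add_neg, ← D.wd_mul, h, D.wd_mul, add_neg_cancel, add_neg_cancel,
    add_neg_cancel, wd_zero])

/-- the base group -/
def E : Subgroup G where
  carrier := {g | ∃ i j l, g = wd a0 a1 a2 i j l}
  one_mem' := ⟨0, 0, 0, wd_zero.symm⟩
  mul_mem' := by
    rintro _ _ ⟨i, j, l, rfl⟩ ⟨i', j', l', rfl⟩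
    exact ⟨_, _, _, D.wd_mul _ _ _ _ _ _⟩
  inv_mem' := by
    rintro _ ⟨i, j, l, rfl⟩
    exact ⟨-i, -j, -l, by
      rw [inv_eq_iff_mul_eq_one, D.wd_mul, add_neg_cancel, add_neg_cancel, add_neg_cancel, wd_zero]⟩

theorem E_le {N : Subgroup G} (h0 : a0 ∈ N) (h1 : a1 ∈ N) (h2 : a2 ∈ N) : D.E ≤ N := by
  rintro _ ⟨i, j, l, rfl⟩
  exact mul_mem (mul_mem (zpow_mem h0 _) (zpow_mem h1 _)) (zpow_mem h2 _)

theorem mem0 : a0 ∈ D.E := ⟨1, 0, 0, by simp [wd]⟩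

theorem mem1 : a1 ∈ D.E := ⟨0, 1, 0, by simp [wd]⟩

theorem mem2 : a2 ∈ D.E := ⟨0, 0, 1, by simp [wd]⟩

theorem wd_cube (i j l : ℤ) : wd a0 a1 a2 i j l ^ 3 = 1 := by
  rw [pow_three, D.wd_mul, D.wd_mul, ← wd_zero (a0 := a0) (a1 := a1) (a2 := a2)]
  exact D.wd_congr (by omega) (by omega) (by omega)

theorem elemAb : IsElementaryAbelian 3 D.E := elemAb_of (by
    rintro _ ⟨i, j, l, rfl⟩ _ ⟨i', j', l', rfl⟩
    rw [D.wd_mul, D.wd_mul, add_comm i, add_comm j, add_comm l]) (by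
    rintro _ ⟨i, j, l, rfl⟩
    exact D.wd_cube i j l)

variable [Finite G]

theorem le_card : 27 ≤ Nat.card D.E := by
  have := Nat.card_le_card_of_injective
    (fun p : Fin 3 × Fin 3 × Fin 3 => (⟨_, (p.1 : ℕ), (p.2.1 : ℕ), (p.2.2 : ℕ), rfl⟩ : D.E)) fun p q h => by
      obtain ⟨h1, h2, h3⟩ := D.dvd' (congrArg Subtype.val h)
      exact Prod.ext (Fin.ext (by omega)) (Prod.ext (Fin.ext (by omega)) (Fin.ext (by omega)))
  simpa using this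

theorem exists_conj (h81 : ∀ P : Subgroup G, IsPGroup 3 P → Nat.card P ≤ 81) {A : Subgroup G}
    (hA : IsElementaryAbelian 3 A) (h27 : 27 ≤ Nat.card A) :
    Nat.card D.E = 27 ∧ ∃ g, A.map (MulAut.conj g).toMonoidHom = D.E := by
  haveI : Fact (Nat.Prime 3) := ⟨Nat.prime_three⟩
  have hn : Subgroup.zpowers s ≤ Subgroup.normalizer (D.E : Set G) := Subgroup.zpowers_le.2
    (Subgroup.mem_normalizer_fintype (by
      rintro _ ⟨i, j, l, rfl⟩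
      exact ⟨_, _, _, D.wd_s i j l⟩))
  have hE := elemAb_isPGroup D.elemAb
  have hQ : IsPGroup 3 ↥(D.E ⊔ Subgroup.zpowers s) :=
    IsPGroup.to_sup_of_normal_left' hE (elemAb_isPGroup (elemAb_zpowers D.s3)) hn
  have fix : ∀ i j l, s * wd a0 a1 a2 i j l * s⁻¹ = wd a0 a1 a2 i j l →
      wd a0 a1 a2 i j l ∈ Subgroup.zpowers (wd a0 a1 a2 1 1 1) := fun i j l h => by
    rw [D.wd_s] at h
    obtain ⟨h1, h2, h3⟩ := D.dvd' h
    obtain h | h | h : 3 ∣ i - 0 ∨ 3 ∣ i - 1 ∨ 3 ∣ i - (1 + 1) := by omega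
    · rw [D.wd_congr h (j' := 0) (l' := 0) (by omega) (by omega), wd_zero]
      exact one_mem _
    · rw [D.wd_congr h (j' := 1) (l' := 1) (by omega) (by omega)]
      exact Subgroup.mem_zpowers _
    · rw [D.wd_congr h (j' := 1 + 1) (l' := 1 + 1) (by omega) (by omega), ← D.wd_mul]
      exact mul_mem (Subgroup.mem_zpowers _) (Subgroup.mem_zpowers _)
  have hs : s ∉ D.E := fun h => by
    have h1 : s * wd a0 a1 a2 1 0 0 * s⁻¹ = wd a0 a1 a2 1 0 0 := by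
      rw [elemAb_comm D.elemAb h ⟨1, 0, 0, rfl⟩, mul_inv_cancel_right]
    rw [D.wd_s] at h1
    have := (D.dvd' h1).1
    omega
  have l1 := D.le_card
  have l2 := h81 _ hQ
  obtain ⟨r, hr⟩ := hE.exists_card_eq
  obtain ⟨t, ht⟩ := hQ.exists_card_eq
  have l3 : Nat.card D.E < Nat.card ↥(D.E ⊔ Subgroup.zpowers s) := lt_of_not_ge fun h =>
    hs (Subgroup.eq_of_le_of_card_ge le_sup_left h ▸ Subgroup.mem_sup_right (Subgroup.mem_zpowers s))
  rw [hr] at l1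
  rw [ht] at l2
  rw [hr, ht] at l3
  have r1 : 2 < r := (Nat.pow_lt_pow_iff_right (by norm_num : 1 < 3)).1 (by omega)
  have r2 : t < 5 := (Nat.pow_lt_pow_iff_right (by norm_num : 1 < 3)).1 (by omega)
  have r3 : r < t := (Nat.pow_lt_pow_iff_right (by norm_num : 1 < 3)).1 l3
  obtain rfl : r = 3 := by omega
  obtain rfl : t = 4 := by omega
  refine ⟨hr, ?_⟩
  obtain ⟨P, hP⟩ := (elemAb_isPGroup hA).exists_le_sylow
  obtain ⟨P', hP'⟩ := hQ.exists_le_sylow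
  obtain ⟨g, hg⟩ := MulAction.exists_smul_eq G P P'
  have e1 : D.E ⊔ Subgroup.zpowers s = P' := Subgroup.eq_of_le_of_card_ge hP' (ht ▸ h81 _ P'.2)
  set B := A.map (MulAut.conj g).toMonoidHom
  have hB : IsElementaryAbelian 3 B := elemAb_map hA _
  have cB : 27 ≤ Nat.card B := by rwa [card_map_conj]
  have hBQ : B ≤ D.E ⊔ Subgroup.zpowers s := by
    rw [e1, ← hg]
    exact Subgroup.map_mono hP
  refine ⟨g, Subgroup.eq_of_le_of_card_ge (fun x hx => by_contra fun hxE => ?_) (hr ▸ cB)⟩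
  obtain ⟨u, hu, _, ⟨m, rfl⟩, rfl⟩ : x ∈ (D.E : Set G) * (Subgroup.zpowers s : Set G) := by
    rw [← Subgroup.coe_mul_of_right_le_normalizer_left _ _ hn]
    exact hBQ hx
  have hm : 3 ∣ m * m - 1 := by
    obtain ⟨c, h | h | h⟩ : ∃ c, m = 3 * c ∨ m = 3 * c + 1 ∨ m = 3 * c + 2 := ⟨m / 3, by omega⟩
    · exact (hxE (mul_mem hu (by
        show s ^ m ∈ D.E
        rw [h, zpow_mul, zpow_ofNat, D.s3, one_zpow]
        exact one_mem _))).elim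
    · exact ⟨3 * c * c + 2 * c, by rw [h]; ring⟩
    · exact ⟨3 * c * c + 4 * c + 1, by rw [h]; ring⟩
  have h3 : B ⊓ D.E ≤ Subgroup.zpowers (wd a0 a1 a2 1 1 1) := by
    rintro d ⟨d1, d2⟩
    have k1 : Commute d (u * s ^ m) := elemAb_comm hB d1 hx
    have k2 : Commute d u := elemAb_comm D.elemAb d2 hu
    have k3 : Commute d (s ^ m) := by simpa using k2.inv_right.mul_right k1
    obtain ⟨c, hc⟩ := hm
    have k4 := k3.zpow_right m
    rw [← zpow_mul, show m * m = 3 * c + 1 by omega, zpow_add, zpow_mul, zpow_ofNat, D.s3, one_zpow, one_mul,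
      zpow_one] at k4
    obtain ⟨i, j, l, rfl⟩ := d2
    exact fix i j l (by rw [← k4.eq, mul_inv_cancel_right])
  have h4 := card_mul_card_le B D.E
  have h5 := Subgroup.card_le_of_le (sup_le hBQ le_sup_left)
  have h6 := Subgroup.card_le_of_le h3
  have h7 : Nat.card (Subgroup.zpowers (wd a0 a1 a2 1 1 1)) ≤ 3 := by
    rw [Nat.card_zpowers]
    exact orderOf_le_of_pow_eq_one (by norm_num) (D.wd_cube 1 1 1)
  rw [hr] at h4
  rw [ht] at h5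
  nlinarith

end Dt

end Cfsg.Agent.TwoF.XS.S62
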