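import Cfsg.Agent.TwoF.XL.Un2.Lin

/-!
# TwoF XS-62: three commuting nilpotent operators with sign changes (helper35)
-/

set_option autoImplicit false
set_option linter.unusedSectionVars false

namespace Cfsg.Agent.TwoF.XS.S62

open Module

variable {k : Type*} [Field k] {V : Type*} [AddCommGroup V] [Module k V] [FiniteDimensional k V]

/-- the ascending series of the operators `x i` -/
def ly (x : Fin 3 → End k V) (n : ℕ) : Submodule k V := Nat.rec ⊥ (fun _ U => ⨅ i, U.comap (x i)) n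

variable {x f : Fin 3 → End k V}

theorem mem_ly {n : ℕ} {v : V} : v ∈ ly x (n + 1) ↔ ∀ i, x i v ∈ ly x n := Submodule.mem_iInf _

theorem mem_ly_one {v : V} : v ∈ ly x 1 ↔ ∀ i, x i v = 0 := mem_ly

theorem ly_inv {g : End k V} (h : ∀ i, ∃ (j : Fin 3) (c : k), ∀ v, x i (g v) = c • g (x j v)) (n : ℕ) :
    ∀ v ∈ ly x n, g v ∈ ly x n := by
  induction n with
  | zero => exact fun v hv => by rw [(Submodule.mem_bot k).1 hv, map_zero]; exact zero_mem _
  | succ n ih =>
    refine fun v hv => mem_ly.2 fun i => ?_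
    obtain ⟨j, c, e⟩ := h i
    rw [e]
    exact Submodule.smul_mem _ _ (ih _ (mem_ly.1 hv j))

theorem ly_le (n : ℕ) : ly x n ≤ ly x (n + 1) := by
  induction n with
  | zero => exact bot_le
  | succ n ih => exact fun v hv => mem_ly.2 fun i => ih (mem_ly.1 hv i)

theorem exists_step {n : ℕ} {v : V} (h : v ∉ ly x (n + 1)) : ∃ i, x i v ∉ ly x n := by
  by_contra! e
  exact h (mem_ly.2 e)

theorem mem_of_two (h2 : (2 : k) ≠ 0) {U : Submodule k V} {v : V} (h : v + v ∈ U) : v ∈ U := by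
  rwa [← two_smul k, U.smul_mem_iff h2] at h

/-- sign changes -/
structure Sg (x f : Fin 3 → End k V) : Prop where
  comm : ∀ i j v, x i (x j v) = x j (x i v)
  nil : ∀ i v, x i (x i (x i v)) = 0
  eq : ∀ i v, f i (x i v) = x i (f i v)
  ne : ∀ i j, i ≠ j → ∀ v, f i (x j v) = -x j (f i v)

theorem Sg.inv (H : Sg x f) (i : Fin 3) (n : ℕ) : ∀ v ∈ ly x n, f i v ∈ ly x n :=
  ly_inv (fun j => ⟨j, if i = j then 1 else -1, fun v => by
    split_ifs with e
    · rw [← e, one_smul, H.eq]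
    · rw [H.ne i j e, smul_neg, neg_one_smul, neg_neg]⟩) n

theorem three_le (h2 : (2 : k) ≠ 0) {s : End k V} (hs : ∀ v, s (s (s v)) = v) (hf : ∀ i v, f i (f i v) = v)
    (hc : ∀ v, f 1 (f 0 v) = f 0 (f 1 v)) (h3 : ∀ v, f 2 v = f 0 (f 1 v)) (hsf : ∀ i v, f (i + 1) (s v) = s (f i v))
    {U W : Submodule k V} (h : U ≤ W) (hU : ∀ i, ∀ v ∈ U, f i v ∈ U) (hW : ∀ i, ∀ v ∈ W, f i v ∈ W)
    (hUs : ∀ v ∈ U, s v ∈ U) (hWs : ∀ v ∈ W, s v ∈ W) {w : V} (hw : w ∈ W) (hn : f 0 w - w ∉ U) :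
    finrank k U + 3 ≤ finrank k W := by
  have s0 : ∀ v, f 0 (s v) = s (f 2 v) := hsf 2
  have s1 : ∀ v, f 1 (s v) = s (f 0 v) := hsf 0
  have s2 : ∀ v, f 2 (s v) = s (f 1 v) := hsf 1
  have hns : ∀ v, v ∉ U → s v ∉ U := fun v hv e => hv (hs v ▸ hUs _ (hUs _ e))
  obtain ⟨v, v1, v2, e0, e1, e2⟩ : ∃ v ∈ W, v ∉ U ∧ f 0 v = -v ∧ f 1 v = -v ∧ f 2 v = v := by
    set u := f 0 w - w with hu
    have u1 : u ∈ W := sub_mem (hW 0 w hw) hw
    have u2 : f 0 u = -u := by rw [hu, map_sub, hf, neg_sub]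
    have u3 : f 0 (f 1 u) = -f 1 u := by rw [← hc, u2, map_neg]
    by_cases hp : u - f 1 u ∈ U
    · have hq : u + f 1 u ∉ U := fun e => hn (mem_of_two h2 (by simpa using add_mem hp e))
      have p1 : f 1 (u + f 1 u) = u + f 1 u := by rw [map_add, hf, add_comm]
      have p0 : f 0 (u + f 1 u) = -(u + f 1 u) := by rw [map_add, u2, u3, neg_add]
      exact ⟨s (u + f 1 u), hWs _ (add_mem u1 (hW 1 u u1)), hns _ hq, by rw [s0, h3, p1, p0, map_neg],
        by rw [s1, p0, map_neg], by rw [s2, p1]⟩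
    · have p1 : f 1 (u - f 1 u) = -(u - f 1 u) := by rw [map_sub, hf, neg_sub]
      have p0 : f 0 (u - f 1 u) = -(u - f 1 u) := by rw [map_sub, u2, u3, neg_sub_neg, neg_sub]
      exact ⟨u - f 1 u, sub_mem u1 (hW 1 u u1), hp, p0, p1, by rw [h3, p1, map_neg, p0, neg_neg]⟩
  have hUU : ∀ i, U ≤ U.comap (f i + 1) := fun i u hu => add_mem (hU i u hu) hu
  have hk : ∀ i u, f i u = -u → (k ∙ u) ≤ U.comap (f i + 1) := fun i u e =>
    (Submodule.span_singleton_le_iff_mem _ _).2 (by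
      show f i u + u ∈ U
      rw [e, neg_add_cancel]
      exact zero_mem _)
  have hlt : ∀ (T : Submodule k V) u, u ∉ T → finrank k T < finrank k ↥(T ⊔ k ∙ u) := fun T u hu =>
    Submodule.finrank_lt_finrank_of_lt (lt_of_le_of_ne le_sup_left fun e =>
      hu (e ▸ Submodule.mem_sup_right (Submodule.mem_span_singleton_self u)))
  have l1 := hlt U v v2
  have l2 := hlt (U ⊔ k ∙ v) (s v) fun e => hns v v2 (mem_of_two h2 (by
    have : f 0 (s v) + s v ∈ U := sup_le (hUU 0) (hk 0 v e0) e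
    rwa [s0, e2] at this))
  have l3 := hlt (U ⊔ (k ∙ v) ⊔ k ∙ s v) (s (s v)) fun e => hns _ (hns v v2) (mem_of_two h2 (by
    have : f 1 (s (s v)) + s (s v) ∈ U := sup_le (sup_le (hUU 1) (hk 1 v e1)) (hk 1 _ (by rw [s1, e0, map_neg])) e
    rwa [s1, s0, e2] at this))
  have l4 : finrank k ↥(U ⊔ (k ∙ v) ⊔ (k ∙ s v) ⊔ k ∙ s (s v)) ≤ finrank k W := Submodule.finrank_mono
    (sup_le (sup_le (sup_le h ((Submodule.span_singleton_le_iff_mem _ _).2 v1))
      ((Submodule.span_singleton_le_iff_mem _ _).2 (hWs _ v1)))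
      ((Submodule.span_singleton_le_iff_mem _ _).2 (hWs _ (hWs _ v1))))
  omega

/-- the sign changes commute -/
theorem Sg.case_comm (H : Sg x f) (h2 : (2 : k) ≠ 0) {s : End k V} (hs : ∀ v, s (s (s v)) = v)
    (hf : ∀ i v, f i (f i v) = v) (hc : ∀ v, f 1 (f 0 v) = f 0 (f 1 v)) (h3 : ∀ v, f 2 v = f 0 (f 1 v))
    (hsf : ∀ i v, f (i + 1) (s v) = s (f i v)) (hsx : ∀ i v, x (i + 1) (s v) = s (x i v))
    (h6 : finrank k V ≤ finrank k (ly x 1) + 6) {v : V} (h4 : v ∈ ly x 4) : v ∈ ly x 3 := by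
  by_contra hv
  have hsi := ly_inv (x := x) (g := s) fun i => ⟨i - 1, 1, fun v => by rw [one_smul, ← hsx, sub_add_cancel]⟩
  let T : ℕ → Prop := fun n => ∀ i, ∀ w ∈ ly x (n + 1), f i w - w ∈ ly x n
  have hT : ∀ n, T n ∨ finrank k (ly x n) + 3 ≤ finrank k (ly x (n + 1)) := fun n => by
    by_cases e : ∀ w ∈ ly x (n + 1), f 0 w - w ∈ ly x n
    · have st : ∀ i, (∀ w ∈ ly x (n + 1), f i w - w ∈ ly x n) → ∀ w ∈ ly x (n + 1), f (i + 1) w - w ∈ ly x n :=
        fun i e w hw => by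
          rw [← hs w, hsf, ← map_sub]
          exact hsi n _ (e _ (hsi _ _ (hsi _ _ hw)))
      refine Or.inl fun i => ?_
      fin_cases i
      exacts [e, st 0 e, st 1 (st 0 e)]
    · push Not at e
      obtain ⟨w, hw, hn⟩ := e
      exact Or.inr (three_le h2 hs hf hc h3 hsf (ly_le n) (fun i => H.inv i n) (fun i => H.inv i _) (hsi n) (hsi _) hw hn)
  have hB : ∀ n, T n → T (n + 1) → ∀ w ∈ ly x (n + 2), w ∈ ly x (n + 1) := fun n t1 t2 w hw => mem_ly.2 fun j => by
    have hj : j + 1 ≠ j := by revert j; decide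
    have e1 := t1 (j + 1) _ (mem_ly.1 hw j)
    have e2 := mem_ly.1 (t2 (j + 1) w hw) j
    rw [H.ne _ _ hj] at e1
    rw [map_sub] at e2
    refine mem_of_two h2 ?_
    have := neg_mem (add_mem e1 e2)
    convert this using 1
    abel
  obtain ⟨i, hi⟩ := exists_step hv
  obtain ⟨j, hj⟩ := exists_step hi
  have m3 := mem_ly.1 h4 i
  have m2 := mem_ly.1 m3 j
  have d1 : finrank k (ly x 1) < finrank k (ly x 2) :=
    Submodule.finrank_lt_finrank_of_lt (lt_of_le_of_ne (ly_le (x := x) 1) fun e => hj (e ▸ m2))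
  have d2 : finrank k (ly x 2) < finrank k (ly x 3) :=
    Submodule.finrank_lt_finrank_of_lt (lt_of_le_of_ne (ly_le (x := x) 2) fun e => hi (e ▸ m3))
  have d3 : finrank k (ly x 3) < finrank k (ly x 4) :=
    Submodule.finrank_lt_finrank_of_lt (lt_of_le_of_ne (ly_le (x := x) 3) fun e => hv (e ▸ h4))
  have d4 := Submodule.finrank_le (ly x 4)
  have n12 : ¬ (T 1 ∧ T 2) := fun e => hi (hB 1 e.1 e.2 _ m3)
  have n23 : ¬ (T 2 ∧ T 3) := fun e => hv (hB 2 e.1 e.2 _ h4)
  have u1 : T 1 ∨ finrank k (ly x 1) + 3 ≤ finrank k (ly x 2) := hT 1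
  have u2 : T 2 ∨ finrank k (ly x 2) + 3 ≤ finrank k (ly x 3) := hT 2
  have u3 : T 3 ∨ finrank k (ly x 3) + 3 ≤ finrank k (ly x 4) := hT 3
  have t13 : T 1 ∧ T 3 := by
    by_cases b : T 2
    · have := u1.resolve_left fun a => n12 ⟨a, b⟩
      have := u3.resolve_left fun a => n23 ⟨b, a⟩
      omega
    · have := u2.resolve_left b
      exact ⟨u1.resolve_right (by omega), u3.resolve_right (by omega)⟩
  have key : ∀ i j, i ≠ j → x i (x j v) ∈ ly x 1 := fun i j hij => by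
    have e1 := t13.1 i _ (mem_ly.1 (mem_ly.1 h4 j) i)
    have e2 := mem_ly.1 (mem_ly.1 (t13.2 i v h4) j) i
    rw [H.eq, H.ne i j hij, map_neg] at e1
    rw [map_sub, map_sub] at e2
    refine mem_of_two h2 ?_
    have := neg_mem (add_mem e1 e2)
    convert this using 1
    abel
  refine hv (mem_ly.2 fun i => mem_ly.2 fun j => mem_ly_one.2 fun l => ?_)
  by_cases e : j = i
  · by_cases e' : l = j
    · rw [e', e, H.nil]
    · rw [H.comm l j, mem_ly_one.1 (key l i (e ▸ e')) j]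
  · exact mem_ly_one.1 (key j i e) l

theorem exists_smul {U W : Submodule k V} (h : U ≤ W) (hd : finrank k W ≤ finrank k U + 1) {v : V} (hv : v ∈ W)
    (hn : v ∉ U) {w : V} (hw : w ∈ W) : ∃ c : k, w - c • v ∈ U := by
  have h1 : U < U ⊔ k ∙ v := lt_of_le_of_ne le_sup_left fun e =>
    hn (e ▸ Submodule.mem_sup_right (Submodule.mem_span_singleton_self v))
  have h3 : U ⊔ (k ∙ v) = W := Submodule.eq_of_le_of_finrank_le
    (sup_le h ((Submodule.span_singleton_le_iff_mem _ _).2 hv)) (hd.trans (Submodule.finrank_lt_finrank_of_lt h1))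
  rw [← h3] at hw
  obtain ⟨u, hu, _, hz, rfl⟩ := Submodule.mem_sup.1 hw
  obtain ⟨c, rfl⟩ := Submodule.mem_span_singleton.1 hz
  exact ⟨c, by rwa [add_sub_cancel_right]⟩

/-- the sign changes anticommute -/
theorem Sg.case_anti (H : Sg x f) (h2 : (2 : k) ≠ 0) {ι : k} (hι : ι * ι = -1) (hf : ∀ i v, f i (f i v) = -v)
    (hc : ∀ i j, i ≠ j → ∀ v, f i (f j v) = -f j (f i v))
    (h6 : finrank k V ≤ finrank k (ly x 1) + 6) {v : V} (h4 : v ∈ ly x 4) : v ∈ ly x 3 := by
  by_contra hv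
  let M : ℕ → Submodule k V := fun n => ly x n ⊓ (f 0).eigenspace ι
  have hM : ∀ n w, w ∈ M n ↔ w ∈ ly x n ∧ f 0 w = ι • w := fun n w => by
    rw [Submodule.mem_inf, End.mem_eigenspace_iff]
  have hback : ∀ i n w, f i w ∈ ly x n → w ∈ ly x n := fun i n w h => by
    have := H.inv i n _ h
    rwa [hf, neg_mem_iff] at this
  have hp : ∀ w, f 0 (w - ι • f 0 w) = ι • (w - ι • f 0 w) := fun w => by
    rw [map_sub, map_smul, hf, smul_sub, smul_smul, hι, smul_neg, neg_one_smul, sub_neg_eq_add, sub_neg_eq_add, add_comm]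
  have hq : ∀ w, f 0 (f 1 (w + ι • f 0 w)) = ι • f 1 (w + ι • f 0 w) := fun w => by
    have e : f 0 (w + ι • f 0 w) = -(ι • (w + ι • f 0 w)) := by
      rw [map_add, map_smul, hf, smul_add, smul_smul, hι, smul_neg, neg_one_smul, neg_add, neg_neg, add_comm]
    rw [hc 0 1 (by decide), e, map_neg, neg_neg, map_smul]
  have hMp : ∀ n, ∀ w ∈ ly x n, w - ι • f 0 w ∈ M n := fun n w hw =>
    (hM _ _).2 ⟨sub_mem hw (Submodule.smul_mem _ _ (H.inv 0 n w hw)), hp w⟩
  have hMq : ∀ n, ∀ w ∈ ly x n, f 1 (w + ι • f 0 w) ∈ M n := fun n w hw =>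
    (hM _ _).2 ⟨H.inv 1 n _ (add_mem hw (Submodule.smul_mem _ _ (H.inv 0 n w hw))), hq w⟩
  have hinj : Function.Injective (f 1) := fun a b e => neg_injective (by rw [← hf 1, e, hf])
  have d4 : 2 * finrank k (M 4) ≤ finrank k V := by
    rw [← finrank_top k V]
    refine XL.Un2.two_mul_le (E' := (M 4).map (f 1)) le_top le_top ?_
      (LinearEquiv.finrank_eq (Submodule.equivMapOfInjective (f 1) hinj _)).le
    rw [Submodule.eq_bot_iff]
    rintro _ ⟨hw', w, hw, rfl⟩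
    have e := ((hM _ _).1 hw').2
    rw [hc 0 1 (by decide), ((hM _ _).1 hw).2, map_smul] at e
    have e2 : (2 * ι) • f 1 w = 0 := by
      rw [mul_smul, two_smul]
      nth_rewrite 1 [← e]
      exact neg_add_cancel _
    refine (smul_eq_zero.1 e2).resolve_left (mul_ne_zero h2 ?_)
    rintro rfl
    simp at hι
  have d1 : finrank k (ly x 1) ≤ 2 * finrank k (M 1) := by
    have e1 : ly x 1 ≤ M 1 ⊔ (M 1).map (f 1) := fun w hw => mem_of_two h2 (by
      have := sub_mem (Submodule.mem_sup_left (T := (M 1).map (f 1)) (hMp 1 w hw))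
        (Submodule.mem_sup_right (S := M 1) (Submodule.mem_map_of_mem (f := f 1) (hMq 1 w hw)))
      rw [hf] at this
      convert this using 1
      abel)
    have e2 := Submodule.finrank_mono e1
    have e3 := Submodule.finrank_add_le_finrank_add_finrank (M 1) ((M 1).map (f 1))
    have e4 := Submodule.finrank_map_le (f 1) (M 1)
    omega
  obtain ⟨v3, a3, b3⟩ : ∃ w ∈ M 4, w ∉ ly x 3 := by
    by_contra! e
    refine hv (mem_of_two h2 ?_)
    have := add_mem (e _ (hMp 4 v h4)) (hback 1 3 _ (e _ (hMq 4 v h4)))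
    convert this using 1
    abel
  let y : Fin 3 → End k V := fun i => f i * x i
  have hy : ∀ i w, y i w = f i (x i w) := fun _ _ => rfl
  have yM : ∀ i n, ∀ w ∈ M (n + 1), y i w ∈ M n := fun i n w hw => (hM _ _).2 ⟨H.inv i n _ (mem_ly.1 ((hM _ _).1 hw).1 i), by
    rw [hy, ← map_smul, ← map_smul, ← ((hM _ _).1 hw).2]
    by_cases e : i = 0
    · rw [e, H.eq 0 w]
    · rw [hc 0 i (Ne.symm e), H.ne 0 i (Ne.symm e), map_neg, neg_neg]⟩
  have ys : ∀ n w, w ∉ ly x (n + 1) → ∃ i, y i w ∉ ly x n := fun n w hw =>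
    (exists_step hw).imp fun i hi e => hi (hback i n _ e)
  have ya : ∀ i j, i ≠ j → ∀ w, y i (y j w) = -y j (y i w) := fun i j hij w => by
    simp only [hy]
    have e1 : x i (f j (x j w)) = -f j (x i (x j w)) := by rw [H.ne j i hij.symm, neg_neg]
    have e2 : x j (f i (x i w)) = -f i (x j (x i w)) := by rw [H.ne i j hij, neg_neg]
    rw [e1, e2, map_neg, map_neg, neg_neg, hc i j hij, neg_neg, H.comm i j]
  have y3 : ∀ i w, y i (y i (y i w)) = 0 := fun i w => by
    simp only [hy, ← H.eq, H.nil, map_zero]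
  obtain ⟨i3, b2⟩ := ys 2 v3 b3
  have a2 := yM i3 3 v3 a3
  set v2 := y i3 v3
  obtain ⟨i2, b1⟩ := ys 1 v2 b2
  have a1 := yM i2 2 v2 a2
  set v1 := y i2 v2
  obtain ⟨l, hl⟩ := ys 0 v1 b1
  have hle : ∀ n, M n ≤ M (n + 1) := fun n => inf_le_inf_right _ (ly_le n)
  have r1 := Submodule.finrank_lt_finrank_of_lt (lt_of_le_of_ne (hle 1) fun e => b1 (e ▸ a1 : v1 ∈ M 1).1)
  have r2 := Submodule.finrank_lt_finrank_of_lt (lt_of_le_of_ne (hle 2) fun e => b2 (e ▸ a2 : v2 ∈ M 2).1)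
  have r3 := Submodule.finrank_lt_finrank_of_lt (lt_of_le_of_ne (hle 3) fun e => b3 (e ▸ a3 : v3 ∈ M 3).1)
  simp only [Nat.reduceAdd] at r1 r2 r3
  choose α hα using fun i => exists_smul (hle 2) (by simp only [Nat.reduceAdd]; omega) a2 (fun e => b2 e.1) (yM i 3 v3 a3)
  choose β hβ using fun i => exists_smul (hle 1) (by simp only [Nat.reduceAdd]; omega) a1 (fun e => b1 e.1) (yM i 2 v2 a2)
  have y0 : ∀ i, ∀ w ∈ M 1, y i w = 0 := fun i w hw => (Submodule.mem_bot k).1 (yM i 0 w hw).1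
  have p1 : ∀ i j, y j (y i v3) - (α i * β j) • v1 ∈ M 1 := fun i j => by
    have := add_mem (yM j 1 _ (hα i)) (Submodule.smul_mem _ (α i) (hβ j))
    rw [map_sub, map_smul, smul_sub, smul_smul] at this
    convert this using 1
    abel
  have p2 : ∀ i j, y j (y i v2) = β i • y j v1 := fun i j => by
    have := y0 j _ (hβ i)
    rwa [map_sub, map_smul, sub_eq_zero] at this
  have hl0 : y l v1 ≠ 0 := fun e => hl (e ▸ zero_mem _)
  have q1 : α l * β l = 0 := by
    have := y0 l _ (p1 l l)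
    rw [map_sub, y3, map_smul, zero_sub, neg_eq_zero] at this
    exact (smul_eq_zero.1 this).resolve_right hl0
  have q2 : β l ≠ 0 := fun e => by
    have hb : ∀ j, β j = 0 := fun j => by
      by_cases e' : j = l
      · rw [e', e]
      · have := ya l j (Ne.symm e') v2
        rw [p2 j l, p2 l j, e, zero_smul, neg_zero] at this
        exact (smul_eq_zero.1 this).resolve_right hl0
    have := hβ i2
    rw [hb, zero_smul, sub_zero] at this
    exact b1 this.1
  have q3 : α l = 0 := (mul_eq_zero.1 q1).resolve_right q2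
  have q4 : α i3 = 0 := by
    by_cases e' : i3 = l
    · rw [e', q3]
    · have := add_mem (p1 i3 l) (p1 l i3)
      rw [ya l i3 (Ne.symm e'), q3, zero_mul, zero_smul, sub_zero] at this
      by_contra e
      refine b1 (((M 1).smul_mem_iff (mul_ne_zero e q2)).1 ?_).1
      convert neg_mem this using 1
      abel
  have := hα i3
  rw [q4, zero_smul, sub_zero] at this
  exact b2 this.1

end Cfsg.Agent.TwoF.XS.S62
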