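import Cfsg.Agent.TwoF.XS.S62.Grp
import Cfsg.Agent.TwoF.XS.Defs
import Cfsg.Agent.StandardComponent.SpTwoAut
import Cfsg.Agent.LieClassical.SympCount

/-!
# TwoF XS-62: `Row88 3 (PSp 3 F)`, `|F| = 2` (helper35)
-/

set_option autoImplicit false
set_option linter.unusedSectionVars false

namespace Cfsg.Agent.TwoF.XS.S62

open Module Gen

section Rep

variable {G : Type} [Group G] [Finite G] {k : Type*} [Field k] [CharP k 3] {V : Type*} [AddCommGroup V] [Module k V]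
  [FiniteDimensional k V] {ρ : Representation k G V}

theorem two_ne : (2 : k) ≠ 0 := fun e => by
  have h3 : ((3 : ℕ) : k) = 0 := CharP.cast_eq_zero k 3
  rw [Nat.cast_ofNat, show (3 : k) = 2 + 1 by norm_num, e, zero_add] at h3
  exact one_ne_zero h3

include k in
theorem add_three (v : V) : v + v + v = 0 := by
  have h3 : ((3 : ℕ) : k) = 0 := CharP.cast_eq_zero k 3
  rw [← one_smul k v, ← add_smul, ← add_smul, show (1 + 1 + 1 : k) = ((3 : ℕ) : k) by norm_num, h3, zero_smul]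

theorem rho_three {a : G} (h : a ^ 3 = 1) (v : V) : ρ a (ρ a (ρ a v)) = v := by
  rw [← rho_mul, ← rho_mul, ← pow_three', h, rho_one]

theorem rho_inv {a : G} (h : a ^ 3 = 1) (v : V) : ρ a⁻¹ v = ρ a (ρ a v) := by
  rw [← rho_mul, show a⁻¹ = a * a by rw [inv_eq_iff_mul_eq_one, ← pow_three, h]]

/-- the odd part -/
def od (ρ : Representation k G V) (a : G) : End k V := ρ a - ρ a⁻¹

theorem od_apply (a : G) (v : V) : od ρ a v = ρ a v - ρ a⁻¹ v := rfl

theorem od_conj {g a b : G} (h : g * a * g⁻¹ = b) (v : V) : ρ g (od ρ a v) = od ρ b (ρ g v) := by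
  rw [od_apply, od_apply, map_sub, ← h, ← rho_mul, ← rho_mul, ← rho_mul, ← rho_mul]
  congr 3 <;> group

theorem od_inv (a : G) (v : V) : od ρ a⁻¹ v = -od ρ a v := by rw [od_apply, od_apply, inv_inv, neg_sub]

theorem od_comm {a b : G} (h : Commute a b) (v : V) : od ρ a (od ρ b v) = od ρ b (od ρ a v) := by
  rw [od_apply a, od_apply a, map_sub, od_conj (g := a) (a := b) (b := b) (by rw [h.eq, mul_inv_cancel_right]),
    od_conj (g := a⁻¹) (a := b) (b := b) (by rw [h.inv_left.eq, mul_inv_cancel_right])]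

theorem od_nil {a : G} (h : a ^ 3 = 1) (v : V) : od ρ a (od ρ a (od ρ a v)) = 0 := by
  simp only [od_apply, rho_inv h, map_sub, rho_three h]
  rw [← add_three (k := k) (ρ a (ρ a v) - ρ a v)]
  abel

theorem mem_of_od {a : G} (h : a ^ 3 = 1) {U : Submodule k V} (hU : ∀ u ∈ U, ρ a u ∈ U) {v : V} (hv : od ρ a v ∈ U) :
    ρ a v - v ∈ U := by
  refine mem_of_two two_ne ?_
  have := add_mem (sub_mem (hU _ (hU _ (hU _ hv))) (hU _ (hU _ hv))) (hU _ hv)
  simp only [od_apply, rho_inv h, map_sub, rho_three h] at this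
  convert this using 1
  abel

variable {a0 a1 a2 s e : G} (D : Dt a0 a1 a2 s e)
include D

theorem asc_eq (n : ℕ) : asc ρ D.E n = ly (fun i => od ρ (![a0, a1, a2] i)) n := by
  induction n with
  | zero => rfl
  | succ n ih =>
    ext v
    have hi : Inv ρ D.E (asc ρ D.E n) := inv_asc Subgroup.le_normalizer n
    rw [mem_ly, ← ih]
    refine ⟨fun h i => ?_, fun h => ?_⟩
    · have hm : ![a0, a1, a2] i ∈ D.E := by
        fin_cases i
        exacts [D.mem0, D.mem1, D.mem2]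
      have := sub_mem (h _ hm) (h _ (inv_mem hm))
      rwa [sub_sub_sub_cancel_right] at this
    · have key : ∀ a ∈ D.E, a ^ 3 = 1 → od ρ a v ∈ asc ρ D.E n → a ∈ stabQ ρ (asc ρ D.E n) v := fun a ha h3 hv =>
        ⟨fun u hu => ⟨hi a ha u hu, hi _ (inv_mem ha) u hu⟩, mem_of_od h3 (hi a ha) hv⟩
      exact fun b hb => (D.E_le (key _ D.mem0 D.a3 (h 0)) (key _ D.mem1 D.b3 (h 1)) (key _ D.mem2 D.d3 (h 2)) hb).2

theorem cub_of {ι : k} (hι : ι * ι = -1) {g c : G} (hg : g = s * e * s⁻¹ * e⁻¹) (hc : g * g = c)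
    (hcs : s * c * s⁻¹ = c) (hw : s * g * s⁻¹ * g = c * (g * (s * g * s⁻¹)))
    (hρ : (∀ v, ρ c v = v) ∨ ∀ v, ρ c v = -v) (h6 : cod ρ D.E ≤ 6) : Cub ρ D.E := by
  haveI : Fact (Nat.Prime 3) := ⟨Nat.prime_three⟩
  by_contra hn
  obtain ⟨v, v4, v3⟩ := exists_asc_four (elemAb_isPGroup D.elemAb) hn
  have h7 := cod_add (ρ := ρ) D.E
  rw [← asc_one, asc_eq D] at h7
  rw [asc_eq D] at v4 v3
  have p0 : g * a0 * g⁻¹ = a0⁻¹ := by
    have e1 : e⁻¹ * a0 * e = a0 := by rw [← D.e0]; nth_rewrite 2 [D.e0]; group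
    calc g * a0 * g⁻¹ = s * (e * (s⁻¹ * (e⁻¹ * a0 * e) * s) * e⁻¹) * s⁻¹ := by rw [hg]; group
      _ = s * (e * a2 * e⁻¹) * s⁻¹ := by rw [e1, ← D.c2]; group
      _ = a0⁻¹ := by rw [D.e2, ← D.c2]; group
  have p1 : g * a1 * g⁻¹ = a1⁻¹ := by
    have e1 : e⁻¹ * a1⁻¹ * e = a1 := by rw [← D.e1]; group
    calc g * a1 * g⁻¹ = s * (e * (s⁻¹ * (e⁻¹ * a1⁻¹ * e)⁻¹ * s) * e⁻¹) * s⁻¹ := by rw [hg]; group
      _ = s * (e * a0 * e⁻¹)⁻¹ * s⁻¹ := by rw [e1, ← D.c0]; group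
      _ = a1⁻¹ := by rw [D.e0, ← D.c0]; group
  have p2 : g * a2 * g⁻¹ = a2 := by
    have e1 : e⁻¹ * a2⁻¹ * e = a2 := by rw [← D.e2]; group
    calc g * a2 * g⁻¹ = s * (e * (s⁻¹ * (e⁻¹ * a2⁻¹ * e)⁻¹ * s) * e⁻¹) * s⁻¹ := by rw [hg]; group
      _ = s * (e * a1 * e⁻¹)⁻¹ * s⁻¹ := by rw [e1, ← D.c1]; group
      _ = a2 := by rw [D.e1, ← D.c1]; group
  have cj : ∀ {x a b : G}, x * a * x⁻¹ = b → (s * x * s⁻¹) * (s * a * s⁻¹) * (s * x * s⁻¹)⁻¹ = s * b * s⁻¹ :=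
    fun h => by rw [← h]; group
  have cm : ∀ {x y z : G}, x * y = z → (s * x * s⁻¹) * (s * y * s⁻¹) = s * z * s⁻¹ := fun h => by rw [← h]; group
  set g0 := s * g * s⁻¹ with hg0
  set g1 := s * g0 * s⁻¹ with hg1
  have hg2 : s * g1 * s⁻¹ = g := D.sss g
  have q0 := cj p2
  have q1 := cj p0
  have q2 := cj p1
  rw [← hg0, D.c2] at q0
  rw [← hg0, ← conj_inv, D.c0] at q1
  rw [← hg0, ← conj_inv, D.c1] at q2
  have r1 := cj q0
  have r2 := cj q1
  have r0 := cj q2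
  rw [← hg1, D.c0] at r1
  rw [← hg1, ← conj_inv, D.c1] at r2
  rw [← hg1, ← conj_inv, D.c2] at r0
  have H : Sg (fun i => od ρ (![a0, a1, a2] i)) fun i => ρ (![g0, g1, g] i) := by
    refine ⟨fun i j v => od_comm ?_ v, fun i v => od_nil ?_ v, fun i v => od_conj ?_ v,
      fun i j hij v => (od_conj ?_ v).trans (od_inv _ _)⟩
    · fin_cases i <;> fin_cases j
      exacts [rfl, D.k01, D.k02, D.k01.symm, rfl, D.k12, D.k02.symm, D.k12.symm, rfl]
    · fin_cases i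
      exacts [D.a3, D.b3, D.d3]
    · fin_cases i
      exacts [q0, r1, p2]
    · fin_cases i <;> fin_cases j
      exacts [absurd rfl hij, q1, q2, r0, absurd rfl hij, r2, p0, p1, absurd rfl hij]
  have s0 : g0 * g0 = c := (cm hc).trans hcs
  have s1 : g1 * g1 = c := (cm s0).trans hcs
  have cw : ∀ {x y : G}, x * y = c * (y * x) →
      (s * x * s⁻¹) * (s * y * s⁻¹) = c * ((s * y * s⁻¹) * (s * x * s⁻¹)) := fun h => by
    rw [cm h]
    nth_rewrite 2 [← hcs]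
    group
  have w0 : g1 * g0 = c * (g0 * g1) := cw hw
  have w1 : g * g1 = c * (g1 * g) := by
    have := cw w0
    rwa [hg2] at this
  have hsq : ∀ i v, ρ (![g0, g1, g] i) (ρ (![g0, g1, g] i) v) = ρ c v := fun i v => by
    rw [← rho_mul]
    congr 2
    fin_cases i
    exacts [s0, s1, hc]
  rcases hρ with hρ | hρ
  · refine v3 (H.case_comm two_ne (s := ρ s) (rho_three D.s3) (fun i v => (hsq i v).trans (hρ v)) (fun v => ?_)
      (fun v => ?_) (fun i v => ?_) (fun i v => (od_conj ?_ v).symm) (by omega) v4)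
    · show ρ g1 (ρ g0 v) = ρ g0 (ρ g1 v)
      rw [← rho_mul, w0, rho_mul, hρ, rho_mul]
    · show ρ g v = ρ g0 (ρ g1 v)
      have e1 : g1 * (g0 * g) = 1 := by
        rw [hg1, hg0, hg]
        calc _ = s ^ 3 * e * (s ^ 3)⁻¹ * e⁻¹ := by rw [pow_three]; group
          _ = 1 := by rw [D.s3]; group
      have e2 : ρ g0 (ρ g1 (ρ g1 (ρ g0 (ρ g v)))) = ρ g0 (ρ g1 v) := by
        rw [← rho_mul ρ g0 g, ← rho_mul ρ g1 (g0 * g), e1, rho_one]
      rwa [← rho_mul ρ g1 g1, s1, hρ, ← rho_mul ρ g0 g0, s0, hρ] at e2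
    · rw [← rho_mul, ← rho_mul]
      congr 2
      rw [eq_comm, ← mul_inv_eq_iff_eq_mul]
      fin_cases i
      exacts [rfl, hg2, rfl]
    · fin_cases i
      exacts [D.c0, D.c1, D.c2]
  · have an : ∀ {x y : G}, x * y = c * (y * x) → ∀ v, ρ x (ρ y v) = -ρ y (ρ x v) := fun h v => by
      rw [← rho_mul, h, rho_mul, hρ, rho_mul]
    have an' : ∀ {x y : G}, x * y = c * (y * x) → ∀ v, ρ y (ρ x v) = -ρ x (ρ y v) := fun h v => by
      rw [an h, neg_neg]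
    refine v3 (H.case_anti two_ne hι (fun i v => (hsq i v).trans (hρ v)) (fun i j hij => ?_) (by omega) v4)
    fin_cases i <;> fin_cases j
    exacts [absurd rfl hij, an' w0, an hw, an w0, absurd rfl hij, an' w1, an' hw, an w1, absurd rfl hij]

end Rep

theorem core {Y S : Type} [Group Y] [Finite Y] [Group S] {μ : Y →* S} (hs : Function.Surjective μ)
    (hZ : ∀ z, μ z = 1 → ∀ y, z * y = y * z) (h3 : ∀ z, μ z = 1 → z ^ 3 = 1 → z = 1)
    (h81 : ∀ P : Subgroup Y, IsPGroup 3 P → Nat.card P ≤ 81) {b0 b1 b2 t d : S} (D : Dt b0 b1 b2 t d) {h : S}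
    (h0 : h = t * d * t⁻¹ * d⁻¹) (h1 : h * h = 1) (h2 : t * h * t⁻¹ * h = h * (t * h * t⁻¹))
    {V : Type} [AddCommGroup V] [Module (ZMod 3) V] [Finite V] {ρ : Representation (ZMod 3) Y V} (hirr : Irr ρ ⊤) :
    G88 3 ρ := fun A hA => by
  by_cases hc : Cub ρ A
  · exact ⟨A, hA, hc⟩
  have lift : ∀ b : S, b ^ 3 = 1 → ∃ a, μ a = b ∧ a ^ 3 = 1 := fun b hb => by
    obtain ⟨y, rfl⟩ := hs b
    obtain ⟨j, n, e1, e2⟩ := XL.Un2.exists_part μ Nat.prime_three y hb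
    refine ⟨y ^ j, e1, ?_⟩
    have key : ∀ (n : ℕ) (z : Y), μ z = 1 → z ^ 3 ^ n = 1 → z = 1 := fun n z hz => by
      induction n with
      | zero => simp
      | succ n ih => exact fun e => ih (h3 _ (by rw [map_pow, hz, one_pow]) (by rw [← pow_mul, ← pow_succ, e]))
    exact key n _ (by rw [map_pow, e1, hb]) (by rw [← pow_mul, mul_comm, pow_mul, e2, one_pow])
  have uniq : ∀ x y : Y, μ x = μ y → x ^ 3 = 1 → y ^ 3 = 1 → x = y := fun x y e hx hy => by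
    have e1 : μ (x * y⁻¹) = 1 := by rw [map_mul, map_inv, e, mul_inv_cancel]
    have e2 : Commute (x * y⁻¹) y := hZ _ e1 y
    have e3 := e2.mul_pow 3
    rw [inv_mul_cancel_right, hx, hy, mul_one] at e3
    exact mul_inv_eq_one.1 (h3 _ e1 e3.symm)
  obtain ⟨a0, m0, n0⟩ := lift b0 D.a3
  obtain ⟨s, ms, ns⟩ := lift t D.s3
  obtain ⟨e, me⟩ := hs d
  have cj : ∀ x y : Y, y ^ 3 = 1 → (x * y * x⁻¹) ^ 3 = 1 := fun x y h => by rw [conj_pow, h]; group
  have n1 := cj s _ n0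
  have n2 := cj s _ n1
  have m1 : μ (s * a0 * s⁻¹) = b1 := by rw [map_mul, map_mul, map_inv, m0, ms, D.c0]
  have m2 : μ (s * (s * a0 * s⁻¹) * s⁻¹) = b2 := by rw [map_mul, map_mul, map_inv, m1, ms, D.c1]
  have D' : Dt a0 (s * a0 * s⁻¹) (s * (s * a0 * s⁻¹) * s⁻¹) s e :=
    ⟨n0, fun h => D.ne (by rw [← m0, h, map_one]), ns, rfl, rfl,
      mul_inv_eq_iff_eq_mul.1 (uniq _ _ (by
        rw [map_mul, map_mul, map_inv, m0, m1, D.c01, mul_inv_cancel_right]) (cj _ _ n1) n1),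
      uniq _ _ (by rw [map_mul, map_mul, map_inv, m0, me, D.e0]) (cj _ _ n0) n0,
      uniq _ _ (by rw [map_mul, map_mul, map_inv, map_inv, m1, me, D.e1]) (cj _ _ n1) (by rw [inv_pow, n1, inv_one]),
      uniq _ _ (by rw [map_mul, map_mul, map_inv, map_inv, m2, me, D.e2]) (cj _ _ n2) (by rw [inv_pow, n2, inv_one])⟩
  obtain ⟨c27, x, hx⟩ := D'.exists_conj h81 hA.1 (Nat.le_of_dvd Nat.card_pos (hA.pow_dvd_of_not_cub hc))
  have hO := hA.conj x
  rw [hx] at hO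
  refine ⟨_, hO, ?_⟩
  have h6 : cod ρ D'.E ≤ 6 := by
    have := hO.2.2
    rwa [c27, show 27 ^ 2 = 3 ^ 6 by norm_num, Nat.pow_le_pow_iff_right (by norm_num)] at this
  obtain ⟨g, hg⟩ : ∃ g, g = s * e * s⁻¹ * e⁻¹ := ⟨_, rfl⟩
  have mg : μ g = h := by simp only [hg, h0, map_mul, map_inv, ms, me]
  obtain ⟨c, hgc⟩ : ∃ c, g * g = c := ⟨_, rfl⟩
  have zc : μ c = 1 := by rw [← hgc, map_mul, mg, h1]
  have hcs : s * c * s⁻¹ = c := by rw [← hZ c zc, mul_inv_cancel_right]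
  obtain ⟨g0, hg0⟩ : ∃ g0, g0 = s * g * s⁻¹ := ⟨_, rfl⟩
  obtain ⟨w, hw⟩ : ∃ w, g0 * g = w * (g * g0) := ⟨g0 * g * (g * g0)⁻¹, by group⟩
  have zw : μ w = 1 := by
    have := congrArg μ hw
    simp only [hg0, map_mul, map_inv, mg, ms, h2] at this
    simpa using this
  have s0 : g0 * g0 = c := by rw [hg0, ← hcs, ← hgc]; group
  have s1 : (g0 * g) * (g0 * g) * c = 1 := by
    have e1 : s * g0 * s⁻¹ * (g0 * g) = 1 := by
      rw [hg0, hg]
      calc _ = s ^ 3 * e * (s ^ 3)⁻¹ * e⁻¹ := by rw [pow_three]; group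
        _ = 1 := by rw [ns]; group
    rw [eq_inv_of_mul_eq_one_right e1, ← hcs, ← s0]
    group
  have kc : ∀ y, Commute c y := hZ c zc
  have kw : ∀ y, Commute w y := hZ w zw
  have e1 : w * c * c * c = 1 := by
    calc w * c * c * c = w * (g * (c * g)) * c := by rw [(kc g).eq, ← mul_assoc g, hgc, ← mul_assoc]
      _ = w * (g * g0) * (g0 * g) * c := by nth_rewrite 1 [← s0]; group
      _ = 1 := by rw [← hw, s1]
  have e2 : w * w = 1 := by
    have : c * g = w * w * (g * c) := by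
      calc c * g = g0 * (g0 * g) := by rw [← s0, mul_assoc]
        _ = g0 * w * (g * g0) := by rw [hw, mul_assoc]
        _ = w * (g0 * g) * g0 := by rw [← (kw g0).eq]; group
        _ = w * w * (g * c) := by rw [hw, ← s0]; group
    rw [(kc g).eq] at this
    simpa using this
  have e3 : c * c = 1 := h3 _ (by rw [map_mul, zc, mul_one]) (by
    have : w = (c * c * c)⁻¹ := eq_inv_of_mul_eq_one_left (by rw [← e1]; group)
    rw [this, ← mul_inv_rev, inv_eq_one] at e2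
    rw [← e2, pow_three]
    group)
  have e4 : w = c := by
    rw [mul_assoc, e3, mul_one] at e1
    rw [eq_inv_of_mul_eq_one_left e1, inv_eq_of_mul_eq_one_right e3]
  have hρ : (∀ v, ρ c v = v) ∨ ∀ v, ρ c v = -v := by
    rcases hirr (fx ρ (Subgroup.zpowers c)) (fun y _ v hv => mem_fx_zpowers.2 (by
      rw [← rho_mul, (kc y).eq, rho_mul, mem_fx_zpowers.1 hv])) with e | e
    · refine Or.inr fun v => ?_
      have : ρ c v + v ∈ fx ρ (Subgroup.zpowers c) := mem_fx_zpowers.2 (by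
        rw [map_add, ← rho_mul, e3, rho_one, add_comm])
      rwa [e, Submodule.mem_bot, add_eq_zero_iff_eq_neg] at this
    · exact Or.inl fun v => mem_fx_zpowers.1 (e ▸ Submodule.mem_top)
  let L := AlgebraicClosure (ZMod 3)
  obtain ⟨ι, hι⟩ := IsAlgClosed.exists_eq_mul_self (-1 : L)
  refine (cub_bc L _).1 (cub_of D' hι.symm hg hgc hcs (by rw [← hg0, hw, e4]) (hρ.imp (fun e v => ?_) fun e v => ?_)
    (by rwa [cod_bc]))
  · rw [bc_apply, show ρ c = 1 from LinearMap.ext e, LinearMap.baseChange_one]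
    rfl
  · rw [bc_apply, show ρ c = -1 from LinearMap.ext e, LinearMap.baseChange_neg, LinearMap.baseChange_one]
    rfl

open StandardComponent.SpTwoAut Matrix

/-- the matrices -/
def mt (i : Fin 6) : Matrix (Fin 3 ⊕ Fin 3) (Fin 3 ⊕ Fin 3) (ZMod 2) :=
  match i with
  | 0 => fromBlocks !![0, 0, 0; 0, 1, 0; 0, 0, 1] !![1, 0, 0; 0, 0, 0; 0, 0, 0] !![1, 0, 0; 0, 0, 0; 0, 0, 0] 1
  | 1 => fromBlocks !![1, 0, 0; 0, 0, 0; 0, 0, 1] !![0, 0, 0; 0, 1, 0; 0, 0, 0] !![0, 0, 0; 0, 1, 0; 0, 0, 0] 1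
  | 2 => fromBlocks !![1, 0, 0; 0, 1, 0; 0, 0, 0] !![0, 0, 0; 0, 0, 0; 0, 0, 1] !![0, 0, 0; 0, 0, 0; 0, 0, 1] 1
  | 3 => fromBlocks !![0, 0, 1; 1, 0, 0; 0, 1, 0] 0 0 !![0, 0, 1; 1, 0, 0; 0, 1, 0]
  | 4 => fromBlocks !![1, 0, 0; 0, 0, 0; 0, 0, 0] !![0, 0, 0; 0, 1, 0; 0, 0, 1] !![0, 0, 0; 0, 1, 0; 0, 0, 1]
      !![1, 0, 0; 0, 0, 0; 0, 0, 0]
  | 5 => fromBlocks !![0, 0, 0; 0, 0, 0; 0, 0, 1] !![1, 0, 0; 0, 1, 0; 0, 0, 0] !![1, 0, 0; 0, 1, 0; 0, 0, 0]
      !![0, 0, 0; 0, 0, 0; 0, 0, 1]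

theorem mt_mem (i : Fin 6) : mt i ∈ Matrix.symplecticGroup (Fin 3) (ZMod 2) := by
  rw [SymplecticGroup.mem_iff]
  revert i
  decide +kernel

/-- the elements -/
def el (i : Fin 6) : X := ⟨mt i, mt_mem i⟩

theorem rel2 {i j l m : Fin 6} (h : mt i * mt j = mt l * mt m) : el i * el j = el l * el m := Subtype.ext h

theorem dt : Dt (el 0) (el 1) (el 2) (el 3) (el 4) where
  a3 := by rw [pow_three']; exact Subtype.ext (show mt 0 * mt 0 * mt 0 = 1 by decide +kernel)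
  ne := fun e => absurd (congrArg Subtype.val e) (show mt 0 ≠ 1 by decide +kernel)
  s3 := by rw [pow_three']; exact Subtype.ext (show mt 3 * mt 3 * mt 3 = 1 by decide +kernel)
  c0 := mul_inv_eq_iff_eq_mul.2 (rel2 (by decide +kernel))
  c1 := mul_inv_eq_iff_eq_mul.2 (rel2 (by decide +kernel))
  c01 := rel2 (by decide +kernel)
  e0 := mul_inv_eq_iff_eq_mul.2 (rel2 (by decide +kernel))
  e1 := by
    rw [mul_inv_eq_iff_eq_mul, eq_inv_mul_iff_mul_eq]
    exact Subtype.ext (show mt 1 * (mt 4 * mt 1) = mt 4 by decide +kernel)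
  e2 := by
    rw [mul_inv_eq_iff_eq_mul, eq_inv_mul_iff_mul_eq]
    exact Subtype.ext (show mt 2 * (mt 4 * mt 2) = mt 4 by decide +kernel)

theorem row_X : Row88 3 X := row88_of_sit fun Y _ _ V _ _ _ K ρ π φ H => by
  obtain rfl : K = ⊤ := eq_top_iff.2 fun y _ => H.toFrm.mem_inn_iff.1 ((inner (φ y)).imp fun _ h => h.symm)
  have e5 : el 3 * el 5 * (el 3)⁻¹ = el 4 := mul_inv_eq_iff_eq_mul.2 (rel2 (by decide +kernel))
  let μ : Y →* X := π.comp (Subgroup.topEquiv (G := Y)).symm.toMonoidHom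
  have hc : ∀ z, μ z = 1 → z ∈ Subgroup.centralizer ((⊤ : Subgroup Y) : Set Y) := fun z hz =>
    H.toFrm.π_eq_one_iff.1 hz
  refine core (μ := μ) (fun x => (H.surj x).elim fun y h => ⟨y, h⟩)
    (fun z hz y => (hc z hz y trivial).symm)
    (fun z hz h3 => H.toStp.eq_one_of_mem_centralizer (n := 1) h3 (hc z hz)) (fun P hP => ?_) dt (h := el 5) ?_
    (Subtype.ext (show mt 5 * mt 5 = 1 by decide +kernel)) (by rw [e5]; exact rel2 (by decide +kernel)) H.irr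
  · obtain ⟨r, hr⟩ := hP.exists_card_eq
    have h1 := Subgroup.card_subgroup_dvd_card (P.map φ)
    rw [H.toStp.card_map H.toFrm hP, hr, card_mulAut, LieClassical.SympCount.card_symplecticGroup, ZMod.card] at h1
    rw [hr, show 81 = 3 ^ 4 by norm_num]
    refine Nat.pow_le_pow_right (by norm_num) (le_of_not_gt fun h => ?_)
    exact absurd ((pow_dvd_pow 3 h).trans h1) (by decide +kernel)
  · rw [eq_mul_inv_iff_mul_eq, eq_mul_inv_iff_mul_eq]
    exact Subtype.ext (show mt 5 * mt 4 * mt 3 = mt 3 * mt 4 by decide +kernel)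

end Cfsg.Agent.TwoF.XS.S62

namespace Cfsg.Agent.TwoF.XS

/-- **`Sp₆(2)`, `p = 3`** -/
theorem sp62 : Sp62 := fun _ _ _ hF Y _ _ V _ _ _ K ρ hs he =>
  S62.row_X Y V K ρ hs (he.elim fun f => (StandardComponent.SpTwoAut.exists_equiv hF).map fun e => f.trans e)

end Cfsg.Agent.TwoF.XS
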